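import Cfsg.Agent.H5.FiveMod
import Cfsg.Agent.H5.MFive
import Cfsg.Agent.H5.Resid
import Cfsg.Agent.H5.ResidInst
import Cfsg.Agent.H1.QsNode

/-!
# S1844: the reduction to the list (helper5)

* `IsL2 L`: `L/O₂(L) ≅ L₂(2ⁿ)`, `n > 1`; `IsL2.card`: the order;
* `Good G`: for `L ∈ ℒ_f*(G, T)` with `T ≤ N(L)`, `IsL2 L`: `T ≤ L`, or `L` is `2⁴:A₅` with `C_G(O₂(L)) ≤ O₂(L)`, `256 ∤ |G|`;
* `conclude`: the conclusion of S1844 from `Good G` and S1821.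
-/

set_option autoImplicit false

namespace Cfsg.Agent.H5.Uniq

open Subgroup Cfsg Cfsg.Agent.H4.LfTrans Cfsg.Agent.H5.Resid

universe u v

variable {G : Type u} [Group G]

/-- `L/O₂(L) ≅ L₂(2ⁿ)`, `n > 1` -/
def IsL2 (L : Subgroup G) : Prop :=
  ∃ (F : Type) (_ : Field F) (_ : Fintype F), CharP F 2 ∧ 4 ≤ Fintype.card F ∧
    Nonempty ((↥L ⧸ Cfsg.pCore 2 ↥L) ≃* Matrix.ProjectiveSpecialLinearGroup (Fin 2) F)

/-- the alternatives -/
def Good (G : Type u) [Group G] : Prop :=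
  ∀ (T : Sylow 2 G), ∀ L ∈ calLf (T : Subgroup G), (T : Subgroup G) ≤ normalizer (L : Set G) → IsL2 L →
    (T : Subgroup G) ≤ L ∨
    (Nat.card L = 960 ∧ Nat.card (pCore 2 ↥L) = 16 ∧
      centralizer (((pCore 2 ↥L).map L.subtype : Subgroup G) : Set G) ≤ (pCore 2 ↥L).map L.subtype ∧
      ¬ 256 ∣ Nat.card G)

/-! ### orders -/

theorem card_psl_two {F : Type*} [Field F] [Fintype F] [CharP F 2] (h4 : 4 ≤ Fintype.card F) :
    ∃ n : ℕ, 2 ≤ n ∧ Nat.card (Matrix.ProjectiveSpecialLinearGroup (Fin 2) F) = 2 ^ n * (2 ^ n * 2 ^ n - 1) := by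
  obtain ⟨n, -, hn⟩ := FiniteField.card F 2
  have hn2 : 2 ≤ (n : ℕ) := by
    by_contra h
    have h1 : (n : ℕ) ≤ 1 := by omega
    have h2 : 2 ^ (n : ℕ) ≤ 2 ^ 1 := Nat.pow_le_pow_right (by norm_num) h1
    rw [hn] at h4
    omega
  refine ⟨n, hn2, ?_⟩
  have h := Cfsg.Agent.S0243.result (F := F) rfl 2 le_rfl
  rw [Fin.prod_univ_two, hn] at h
  set q : ℕ := 2 ^ (n : ℕ) with hq
  have hq4 : 4 ≤ q := by rw [← hn]; exact h4
  have hqe : Even q := by rw [hq]; exact Nat.even_pow.2 ⟨even_two, by omega⟩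
  have hg : Nat.gcd 2 (q - 1) = 1 := by
    have : Odd (q - 1) := Nat.Even.sub_odd (by omega) hqe odd_one
    exact (Nat.coprime_two_left).2 this
  rw [hg, one_mul] at h
  have e1 : q ^ 2 - q ^ ((0 : Fin 2) : ℕ) = q * q - 1 := by simp [pow_two]
  have e2 : q ^ 2 - q ^ ((1 : Fin 2) : ℕ) = (q - 1) * q := by
    simp only [Fin.isValue, Fin.val_one, pow_one, pow_two, Nat.sub_mul, one_mul]
  rw [e1, e2] at h
  have hpos : 0 < q - 1 := by omega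
  apply Nat.eq_of_mul_eq_mul_left hpos
  rw [h]
  ring

theorem IsL2.card {L : Subgroup G} (h : IsL2 L) :
    ∃ n : ℕ, 2 ≤ n ∧ Nat.card (↥L ⧸ pCore 2 ↥L) = 2 ^ n * (2 ^ n * 2 ^ n - 1) := by
  obtain ⟨F, _, _, hF, h4, ⟨e⟩⟩ := h
  obtain ⟨n, h1, h2⟩ := card_psl_two (F := F) h4
  exact ⟨n, h1, (Nat.card_congr e.toEquiv).trans h2⟩

/-- small orders -/
theorem IsL2.mem {L : Subgroup G} (h : IsL2 L) {k : ℕ} (hk : ¬ 2 ^ (k + 1) ∣ Nat.card (↥L ⧸ pCore 2 ↥L)) :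
    ∃ n : ℕ, 2 ≤ n ∧ n ≤ k ∧ Nat.card (↥L ⧸ pCore 2 ↥L) = 2 ^ n * (2 ^ n * 2 ^ n - 1) := by
  obtain ⟨n, h1, h2⟩ := h.card
  refine ⟨n, h1, ?_, h2⟩
  by_contra h3
  apply hk
  rw [h2]
  exact (pow_dvd_pow 2 (by omega)).mul_right _

theorem not_isL2 {L : Subgroup G} {m : ℕ} (hm : Nat.card (↥L ⧸ pCore 2 ↥L) = m) (h128 : ¬ 128 ∣ m)
    (h : m ≠ 60 ∧ m ≠ 504 ∧ m ≠ 4080 ∧ m ≠ 32736 ∧ m ≠ 262080) : ¬ IsL2 L := by
  intro hL
  obtain ⟨n, h1, h2, h3⟩ := hL.mem (k := 6) (by rw [hm]; exact h128)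
  rw [hm] at h3
  obtain ⟨a, b, c, d, e⟩ := h
  interval_cases n <;> omega

/-! ### the conclusion -/

theorem conclude [Finite G] (hG : Good G) (T : Sylow 2 G) {M L : Subgroup G}
    (hM : M ∈ maxTwoLocalsContaining (T : Subgroup G)) (hL : L ∈ calLfMax (T : Subgroup G)) (hLM : L ≤ M)
    (hN : M ≤ normalizer (L : Set G)) (hL2 : IsL2 L)
    (h21 : maxTwoLocalsContaining (L ⊔ (T : Subgroup G)) =
      {normalizer (conjClosure L (T : Subgroup G) : Set G)}) : maxTwoLocalsContaining L = {M} := by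
  have hf : L ∈ calLf (T : Subgroup G) := ⟨hL.1.1, hL.2⟩
  rcases hG T L hf (hM.2.trans hN) hL2 with h | ⟨h1, h2, h3, h4⟩
  · rw [sup_eq_left.2 h] at h21
    have h5 : M ∈ maxTwoLocalsContaining L := ⟨hM.1, hLM⟩
    rw [h21] at h5 ⊢
    rw [Set.mem_singleton_iff.1 h5]
  · refine FiveMod.unique h4 rfl h1 ?_ h3 hM.1 hLM hN
    rwa [Nat.card_congr ((pCore 2 ↥L).equivMapOfInjective _ L.subtype_injective).symm.toEquiv]

/-! ### easy rows -/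

theorem Good.of_noLf (h : NoLf G) : Good G := by
  intro T L hL
  rw [h T] at hL
  exact hL.elim

theorem Good.of_rowT (h : H1.QsNode.RowT G) : Good G := fun T L hL _ _ => Or.inl (h T L hL.1)

theorem Good.of_not (h : ∀ (T : Sylow 2 G), ∀ L ∈ calLf (T : Subgroup G), ¬ IsL2 L) : Good G :=
  fun T L hL _ h2 => (h T L hL h2).elim

theorem Good.of_row64 [Finite G] (hFT : Top.FT.{u}) (hE : IsOfEvenCharacteristic G) (h128 : ¬ 128 ∣ Nat.card G) :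
    Good G := fun T _ hL _ _ => Or.inl (Row64.row64 hFT hE h128 T hL.1).1

theorem not_isL2_of_l3 {L : Subgroup G} (h : IsL3 L) : ¬ IsL2 L := by
  obtain ⟨e⟩ := h
  exact not_isL2 ((Nat.card_congr e.toEquiv).trans ResidEnd.card_l3) (by norm_num) (by norm_num)

theorem not_isL2_of_a6 {L : Subgroup G} (h : IsAlt 6 L) : ¬ IsL2 L := by
  obtain ⟨e⟩ := h
  exact not_isL2 ((Nat.card_congr e.toEquiv).trans ResidEnd.card_alt_six) (by norm_num) (by norm_num)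

end Cfsg.Agent.H5.Uniq
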