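import Cfsg.Agent.H5.Uniq.Rows
import Cfsg.Agent.H1.TopPSL
import Cfsg.Agent.H1.TopChev
import Cfsg.Agent.H1.TopHex
import Cfsg.Agent.H2.TwFFin
import Cfsg.Agent.H3.M24Row

/-!
# S1844: all rows (helper5)
-/

set_option autoImplicit false

namespace Cfsg.Agent.H5.Uniq

open Subgroup Cfsg Cfsg.Agent.H4.LfTrans Cfsg.Agent.H5.Resid

universe u v

variable {G : Type u} [Group G] [Finite G]

/-! ### large fields -/

theorem good_large [IsSimpleGroup G] (hFT : Top.FT.{0}) (h : IsLieRankTwoCharTwoLargeField G) : Good G := by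
  apply Good.of_rowT
  rcases h with ⟨F, _, _, hF, h4, ⟨⟨e⟩⟩ | ⟨⟨e⟩⟩ | ⟨⟨e⟩⟩⟩ | ⟨F, _, _, n, hn, hF, ⟨e⟩⟩ | ⟨F, _, _, hF, ⟨e⟩⟩ |
      ⟨K, _, _, n, hn, hK, ⟨e⟩⟩ | h
  · exact H1.TopPSL.rowT_psl_three h4 e
  · have : Finite (PSp 2 F) := Finite.of_equiv G e.toEquiv
    exact (H1.RowU.rowT_pSp h4 fun T hT => hFT _ hT).congr e
  · exact H1.TopChev.rowT_gTwo h4 e
  · have hn0 : n ≠ 0 := by omega
    have : CharP F 2 := by
      have : Fact (Nat.Prime 2) := ⟨Nat.prime_two⟩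
      exact charP_of_card_eq_prime_pow (f := n * 2) (by rw [hF, ← pow_mul])
    have : Finite (PSU 4 F (2 ^ n)) := Finite.of_equiv G e.toEquiv
    have h3 : 3 ≤ 2 ^ n := by
      calc 3 ≤ 2 ^ 2 := by norm_num
        _ ≤ 2 ^ n := Nat.pow_le_pow_right (by norm_num) hn
    obtain ⟨-, -, -, h⟩ := H1.RowU.row_model_four hF h3 fun T hT => hFT _ hT
    exact h.congr e
  · have : CharP F 2 := by
      have : Fact (Nat.Prime 2) := ⟨Nat.prime_two⟩
      exact charP_of_card_eq_prime_pow (f := 4) (by rw [hF]; norm_num)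
    have : Finite (PSU 5 F 4) := Finite.of_equiv G e.toEquiv
    obtain ⟨-, -, h⟩ := H1.RowU.row_model_five (q := 4) (by rw [hF]; norm_num) (by norm_num) fun T hT => hFT _ hT
    exact h.congr e
  · have : CharP K 2 := by
      have : Fact (Nat.Prime 2) := ⟨Nat.prime_two⟩
      exact charP_of_card_eq_prime_pow (f := n * 3) (by rw [hK, ← pow_mul])
    have h4 : 4 ≤ 2 ^ n := by
      calc 4 = 2 ^ 2 := by norm_num
        _ ≤ 2 ^ n := Nat.pow_le_pow_right (by norm_num) hn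
    exact H1.TopHex.rowT_twD4 (Nat.prime_two.isPrimePow.pow (by omega)) h4 hK e
  · exact H2.TwF.rowT h

theorem good_u5 (hFT : Top.FT.{0}) {F : Type} [Field F] [Fintype F] {n : ℕ} (hn : 2 ≤ n)
    (hF : Fintype.card F = (2 ^ n) ^ 2) (e : G ≃* PSU 5 F (2 ^ n)) : Good G := by
  apply Good.of_rowT
  have : CharP F 2 := by
    have : Fact (Nat.Prime 2) := ⟨Nat.prime_two⟩
    exact charP_of_card_eq_prime_pow (f := n * 2) (by rw [hF, ← pow_mul])
  have : Finite (PSU 5 F (2 ^ n)) := Finite.of_equiv G e.toEquiv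
  have h3 : 3 ≤ 2 ^ n := by
    calc 3 ≤ 2 ^ 2 := by norm_num
      _ ≤ 2 ^ n := Nat.pow_le_pow_right (by norm_num) hn
  obtain ⟨-, -, h⟩ := H1.RowU.row_model_five hF h3 fun T hT => hFT _ hT
  exact h.congr e

/-! ### `M₂₄` -/

theorem noL2_m24 (h : Spor.IsoM24 G) : NoL2 G := by
  obtain ⟨e⟩ := h
  refine NoL2.congr e fun T L hL => ?_
  rcases (H3.M24Row.row24 T hL.1).2 with ⟨⟨f⟩⟩ | ⟨⟨f⟩⟩ | ⟨-, -, h⟩
  · refine not_isL2 (m := 20160) ((Nat.card_congr f.toEquiv).trans ?_) (by norm_num) (by norm_num)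
    have h := nat_card_alternatingGroup (α := Fin 8)
    rw [h, Nat.card_fin, show Nat.factorial 8 = 40320 by rfl]
  · exact not_isL2 ((Nat.card_congr f.toEquiv).trans ResidEnd.card_l3) (by norm_num) (by norm_num)
  · rcases h with h | h
    · exact not_isL2 h (by norm_num) (by norm_num)
    · exact not_isL2 h (by norm_num) (by norm_num)

/-! ### assembly -/

/-- **All groups on the list.** -/
theorem good [IsSimpleGroup G] (hFT0 : Top.FT.{0}) (hFT : Top.FT.{u}) (hE : IsOfEvenCharacteristic G)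
    (hl : IsOnQTKEList G) (H : Resid.Hyp G) (hHe : Spor.IsoHe G → Good G) (hJ4 : Spor.IsoJ4 G → Good G) : Good G := by
  by_cases hR : InResidualCase G
  · exact good_resid hFT hE hl hR H
  · by_contra hg
    apply hR
    refine ⟨fun h => hg (good_large hFT0 h), ?_, ?_, ?_, ?_⟩
    · rintro ⟨F, _, _, n, hn, hF, ⟨e⟩⟩
      exact hg (good_u5 hFT0 hn hF e)
    · rintro ⟨F, _, _, hF, ⟨⟨e⟩⟩ | ⟨⟨e⟩⟩⟩
      · exact hg (good_l42 hFT hE hF e)
      · exact hg (good_l52 hF e).good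
    · rintro ⟨e⟩
      exact hg (good_a9 hFT hE e)
    · rintro (h | h | h | h | h)
      · exact hg (good_m22 hE h)
      · exact hg (good_m23 hE h)
      · exact hg (noL2_m24 h).good
      · exact hg (hHe h)
      · exact hg (hJ4 h)

end Cfsg.Agent.H5.Uniq
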