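import Cfsg.Agent.H5.Uniq.Base
import Cfsg.Agent.H1.RowPSLFive

/-!
# S1844: rows (helper5)
-/

set_option autoImplicit false

namespace Cfsg.Agent.H5.Uniq

open Subgroup Cfsg Cfsg.Agent.H4.LfTrans Cfsg.Agent.H5.Resid Cfsg.Agent.QTUniq.Local

universe u v

variable {G : Type u} [Group G]

/-! ### transport -/

/-- no member of `ℒ_f(G, T)` is of type `L₂(2ⁿ)`, `n > 1` -/
def NoL2 (G : Type u) [Group G] : Prop := ∀ (T : Sylow 2 G), ∀ L ∈ calLf (T : Subgroup G), ¬ IsL2 L

theorem NoL2.good (h : NoL2 G) : Good G := Good.of_not h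

theorem NoL2.congr [Finite G] {K : Type v} [Group K] (e : G ≃* K) (h : NoL2 K) : NoL2 G := by
  intro T L hL hL2
  obtain ⟨T', L', -, -, hLf, ⟨f⟩⟩ := exists_transport e T hL
  obtain ⟨F, i1, i2, h1, h2, ⟨e2⟩⟩ := hL2
  exact h T' L' hLf ⟨F, i1, i2, h1, h2, ⟨(quotEquiv f).symm.trans e2⟩⟩

/-! ### `M₂₂`, `M₂₃` -/

theorem good_of_inv [Finite G] (hE : IsOfEvenCharacteristic G) (h256 : ¬ 256 ∣ Nat.card G)
    (hI : H4.SevenOdd.InvPrime G 5) (h31 : ¬ 31 ∣ Nat.card G) (h127 : ¬ 127 ∣ Nat.card G) : Good G := by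
  have h2p : Fact (Nat.Prime 2) := ⟨Nat.prime_two⟩
  intro T L hL _ hL2
  have hLG : Nat.card L ∣ Nat.card G := card_subgroup_dvd_card L
  have hm := Top.card_eq_mul (X := ↥L)
  have hqL : Nat.card (↥L ⧸ pCore 2 ↥L) ∣ Nat.card L := by rw [hm]; exact dvd_mul_right _ _
  obtain ⟨n, hn2, hn7, hn⟩ := hL2.mem (k := 7) (fun h => h256 ((h.trans hqL).trans hLG))
  by_cases h5 : 5 ∣ Nat.card L
  · obtain ⟨h16, hC⟩ := FiveCore.five_type hE h256 hI T hL.1 h5
    right
    rw [h16, hn] at hm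
    have hn3 : n ≤ 3 := by
      by_contra h
      apply h256
      refine Dvd.dvd.trans ?_ hLG
      rw [hm, show 256 = 2 ^ 4 * 16 by norm_num]
      exact mul_dvd_mul ((pow_dvd_pow 2 (by omega)).mul_right _) dvd_rfl
    interval_cases n
    · exact ⟨by rw [hm]; norm_num, h16, hC, h256⟩
    · exfalso
      rw [hm] at h5
      norm_num at h5
  · exfalso
    have hq5 : ¬ 5 ∣ Nat.card (↥L ⧸ pCore 2 ↥L) := fun h => h5 (h.trans hqL)
    have hqG := hqL.trans hLG
    rw [hn] at hq5 hqG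
    interval_cases n
    · exact hq5 (by norm_num)
    · -- `504`
      have hle : Nat.card (pCore 2 ↥L) ≤ 16 := by
        obtain ⟨a, ha⟩ := IsPGroup.iff_card.1 (Lib.Cores.pCore_isPGroup (G := ↥L) 2)
        rw [ha]
        have ha4 : a ≤ 4 := by
          by_contra h
          apply h256
          refine Dvd.dvd.trans ?_ hLG
          rw [hm, hn, ha, show 256 = 2 ^ 3 * 2 ^ 5 by norm_num]
          exact mul_dvd_mul ((pow_dvd_pow 2 (by omega)).mul_right _) (pow_dvd_pow 2 (by omega))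
        calc 2 ^ a ≤ 2 ^ 4 := Nat.pow_le_pow_right (by norm_num) ha4
          _ = 16 := by norm_num
      have hnt := Row64.nontrivial hL.1
      rcases Top.top16 (Row64.perfect_top hL.1) (Row64.centralizer_le hE T hL.1) hle (by rw [hn]; norm_num) with
        h | h | h | h <;> rw [hn] at h <;> norm_num at h
    · exact hq5 (by norm_num)
    · exact h31 (Dvd.dvd.trans (by norm_num) hqG)
    · exact hq5 (by norm_num)
    · exact h127 (Dvd.dvd.trans (by norm_num) hqG)

theorem good_m22 [Finite G] (hE : IsOfEvenCharacteristic G) (h : Spor.IsoM22 G) : Good G := by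
  have hI := MFive.invPrime_m22 h
  obtain ⟨e⟩ := h
  have hc : Nat.card G = 443520 := (Nat.card_congr e.toEquiv).trans SporadicA.MathieuRecog.card_M22
  exact good_of_inv hE (by rw [hc]; norm_num) hI (by rw [hc]; norm_num) (by rw [hc]; norm_num)

theorem good_m23 [Finite G] (hE : IsOfEvenCharacteristic G) (h : Spor.IsoM23 G) : Good G := by
  have hI := MFive.invPrime_m23 h
  obtain ⟨e⟩ := h
  have hc : Nat.card G = 10200960 := (Nat.card_congr e.toEquiv).trans SporadicA.MathieuRecog.card_M23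
  exact good_of_inv hE (by rw [hc]; norm_num) hI (by rw [hc]; norm_num) (by rw [hc]; norm_num)

/-! ### `L₅(2)` -/

theorem card_psl_four {F : Type*} [Field F] [Fintype F] (hF : Fintype.card F = 2) :
    Nat.card (Matrix.ProjectiveSpecialLinearGroup (Fin 4) F) = 20160 := by
  have h := Cfsg.Agent.S0243.result (F := F) hF 4 (by norm_num)
  rw [Fin.prod_univ_four] at h
  norm_num at h
  exact h

theorem card_psl_three {F : Type*} [Field F] [Fintype F] (hF : Fintype.card F = 2) :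
    Nat.card (Matrix.ProjectiveSpecialLinearGroup (Fin 3) F) = 168 := by
  have h := Cfsg.Agent.S0243.result (F := F) hF 3 (by norm_num)
  rw [Fin.prod_univ_three] at h
  norm_num at h
  exact h

theorem good_l52 [Finite G] {F : Type*} [Field F] [Fintype F] (hF : Fintype.card F = 2)
    (e : G ≃* Matrix.ProjectiveSpecialLinearGroup (Fin 5) F) : NoL2 G := by
  have : CharP F 2 := charP_of_card_eq_prime hF
  intro T L hL
  obtain ⟨-, i, ⟨f⟩⟩ := H1.RowPSLFive.row_psl_five hF e T L hL.1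
  fin_cases i
  · exact not_isL2 ((Nat.card_congr f.toEquiv).trans (card_psl_three hF)) (by norm_num) (by norm_num)
  · exact not_isL2 ((Nat.card_congr f.toEquiv).trans (card_psl_four hF)) (by norm_num) (by norm_num)

theorem good_l42 [Finite G] (hFT : Top.FT.{u}) (hE : IsOfEvenCharacteristic G) {F : Type*} [Field F] [Fintype F]
    (hF : Fintype.card F = 2) (e : G ≃* Matrix.ProjectiveSpecialLinearGroup (Fin 4) F) : Good G :=
  Good.of_row64 hFT hE (by rw [(Nat.card_congr e.toEquiv).trans (card_psl_four hF)]; norm_num)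

theorem good_a9 [Finite G] (hFT : Top.FT.{u}) (hE : IsOfEvenCharacteristic G)
    (e : G ≃* alternatingGroup (Fin 9)) : Good G := by
  have hc : Nat.card (alternatingGroup (Fin 9)) = 181440 := by
    have h := nat_card_alternatingGroup (α := Fin 9)
    rw [h, Nat.card_fin, show Nat.factorial 9 = 362880 by rfl]
  exact Good.of_row64 hFT hE (by rw [(Nat.card_congr e.toEquiv).trans hc]; norm_num)

/-! ### `L₄(3)` -/

theorem normalizer_le_core (L : Subgroup G) :
    normalizer (L : Set G) ≤ normalizer (((pCore 2 ↥L).map L.subtype : Subgroup G) : Set G) := by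
  have h0 : ∀ g ∈ normalizer (L : Set G), ∀ e ∈ (pCore 2 ↥L).map L.subtype, g * e * g⁻¹ ∈ (pCore 2 ↥L).map L.subtype := by
    intro g hg e he
    let f : MulAut ↥L := L.normalizerMonoidHom ⟨g, hg⟩
    have h5 : (pCore 2 ↥L).map f.toMonoidHom = pCore 2 ↥L := Cfsg.Agent.Lib.Cores.map_equiv_pCore f 2
    obtain ⟨y, hy, rfl⟩ := he
    refine ⟨f y, ?_, rfl⟩
    rw [← h5]
    exact ⟨y, hy, rfl⟩
  intro g hg
  rw [mem_normalizer_iff]
  intro e
  refine ⟨h0 g hg e, fun h => ?_⟩
  have h1 := h0 g⁻¹ (inv_mem hg) _ h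
  have e1 : g⁻¹ * (g * e * g⁻¹) * g⁻¹⁻¹ = e := by group
  rwa [e1] at h1

theorem selfCent_congr {K : Type v} [Group K] (e : G ≃* K) {T : Subgroup G}
    (h : H4.Row128.SelfCent (T.map e.toMonoidHom)) : H4.Row128.SelfCent T := by
  intro U hU hc hs h16 x hx hxU
  have h1 := h (U.map e.toMonoidHom) (map_mono hU) ?_ ?_ ?_ (e x) ⟨x, hx, rfl⟩ ?_
  · obtain ⟨y, hy, h2⟩ := h1
    have : y = x := e.injective h2
    rwa [← this]
  · rintro _ ⟨a, ha, rfl⟩ _ ⟨b, hb, rfl⟩
    rw [← map_mul, hc a ha b hb, map_mul]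
  · rintro _ ⟨a, ha, rfl⟩
    rw [← map_mul, hs a ha, map_one]
  · rw [← h16]
    exact (Nat.card_congr (U.equivMapOfInjective _ e.injective).toEquiv).symm
  · rintro _ ⟨a, ha, rfl⟩
    show e x * e a = e a * e x
    rw [← map_mul, hxU a ha, map_mul]

theorem good_l43 [Finite G] (hE : IsOfEvenCharacteristic G) {F : Type*} [Field F] [Fintype F]
    (hF : Fintype.card F = 3) (e : G ≃* Matrix.ProjectiveSpecialLinearGroup (Fin 4) F) : Good G := by
  have h2p : Fact (Nat.Prime 2) := ⟨Nat.prime_two⟩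
  intro T L hL hTL _
  right
  obtain ⟨-, -, ⟨e5⟩, hc⟩ := H4.RowL43.l43 hE hF e T L hL
  have hcG : Nat.card G = 6065280 := (Nat.card_congr e.toEquiv).trans (H4.RowL43.card_psl hF)
  have hLG : Nat.card ↥L ∣ Nat.card G := Subgroup.card_subgroup_dvd_card L
  have h7 : ¬ 7 ∣ Nat.card ↥L := by rw [hc]; norm_num
  obtain ⟨f, w, hd⟩ := Cfsg.Agent.LFourA.SylPsl.exists_dwr_psl (F := F) (k := 0) (m := 1) (by rw [hF])
    (by rw [hF]; norm_num) (by decide) (mapSylow e T)
  have hS : H4.Row128.SelfCent (T : Subgroup G) := by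
    have h1 := H4.DWrCent.selfCent hd
    rw [coe_mapSylow] at h1
    exact selfCent_congr e h1
  obtain ⟨h1, h2⟩ := H4.Row128.core_eq T hS hL h7
  obtain ⟨-, hA⟩ := H4.Small.acts_inner hL
  refine ⟨hc, H4.Row128.card_core T hS hL h7, ?_, by rw [hcG]; norm_num⟩
  have hUT : (pCore 2 ↥L).map L.subtype ≤ (T : Subgroup G) := H4.Row128.coreOf_le T hL.1
  have hNN := normalizer_le_core (G := G) L
  refine FiveCore.cent_le hE T (map_pCore_isPGroup 2 L) ?_ (hTL.trans hNN) ?_
  · rw [h1]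
    intro h3
    rw [h3, card_bot] at h2
    norm_num at h2
  · rw [h1] at hUT ⊢
    exact fun x hx h3 => hS _ hUT hA.comm hA.sq h2 x hx h3

/-! ### the residual case -/

theorem good_resid [Finite G] (hFT : Top.FT.{u}) (hE : IsOfEvenCharacteristic G) (hl : IsOnQTKEList G)
    (hR : InResidualCase G) (H : Resid.Hyp G) : Good G := by
  intro T L hL hTL hL2
  obtain ⟨-, -, h⟩ := Resid.main hFT hE hl hR H T L hL
  rcases h with ⟨h, -⟩ | ⟨-, h | h⟩ | ⟨h, -⟩
  · exact (not_isL2_of_a6 h hL2).elim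
  · obtain ⟨F, _, _, hF, ⟨e⟩⟩ := h
    have hc : Nat.card G = 25920 := (Nat.card_congr e.toEquiv).trans (card_u42 hF)
    exact Good.of_row64 hFT hE (by rw [hc]; norm_num) T L hL hTL hL2
  · obtain ⟨F, _, _, hF, ⟨e⟩⟩ := h
    exact good_l43 hE hF e T L hL hTL hL2
  · exact (not_isL2_of_l3 h hL2).elim

end Cfsg.Agent.H5.Uniq
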